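import Mathlib
import Cfsg.Statements.S3304
import Cfsg.Agent.S3305
import Cfsg.Agent.Lib.Lead.Cores
import Cfsg.Agent.Lib.Helper21.Rank

set_option autoImplicit false

namespace Cfsg.Agent.Lib.Helper49.G23

open Cfsg Cfsg.Agent.Lib.Lead

theorem A_gen {G : Type*} [Group G] [Finite G]
    (hI : ∀ S T : Sylow 2 G, S ≠ T → Cfsg.PRankLE 2 1 ↥((S : Subgroup G) ⊓ (T : Subgroup G)))
    (H : Subgroup G) [H.Normal] (hH : (Nat.card H).Coprime 2) :
    ∀ S T : Sylow 2 (G ⧸ H), S ≠ T →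
      Cfsg.PRankLE 2 1 ↥((S : Subgroup (G ⧸ H)) ⊓ (T : Subgroup (G ⧸ H))) := by
  intro S' T' hne
  have hf : Function.Surjective (QuotientGroup.mk' H) := QuotientGroup.mk'_surjective H
  obtain ⟨S, rfl⟩ := Sylow.mapSurjective_surjective hf 2 S'
  obtain ⟨T, rfl⟩ := Sylow.mapSurjective_surjective hf 2 T'
  rw [Sylow.coe_mapSurjective, Sylow.coe_mapSurjective]
  set U : Subgroup G := (T : Subgroup G) ⊓ ((S : Subgroup G) ⊔ H) with hU
  have hUp : IsPGroup 2 ↥U := T.2.to_inf_left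
  obtain ⟨h, hh, hconj⟩ := Cfsg.Agent.S3305.exists_conj_mem_of_le_sup S H U hUp inf_le_right
  have hne' : h⁻¹ • S ≠ T := by
    intro heq
    apply hne
    apply Sylow.ext
    rw [Sylow.coe_mapSurjective, Sylow.coe_mapSurjective, ← heq, Sylow.coe_subgroup_smul]
    ext y
    simp only [Subgroup.mem_map]
    constructor
    · rintro ⟨s, hs, rfl⟩
      refine ⟨h⁻¹ * s * h, ?_, ?_⟩
      · rw [Subgroup.mem_pointwise_smul_iff_inv_smul_mem]
        have : (MulAut.conj h⁻¹)⁻¹ • (h⁻¹ * s * h) = s := by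
          simp [MulAut.smul_def, mul_assoc]
        rw [this]; exact hs
      · have hh1 : (QuotientGroup.mk' H) h = 1 := (QuotientGroup.eq_one_iff h).2 hh
        rw [map_mul, map_mul, map_inv, hh1]; simp
    · rintro ⟨s, hs, rfl⟩
      rw [Subgroup.mem_pointwise_smul_iff_inv_smul_mem] at hs
      refine ⟨_, hs, ?_⟩
      have hh1 : (h : G ⧸ H) = 1 := (QuotientGroup.eq_one_iff h).2 hh
      simp [MulAut.smul_def, hh1]
  have hUle : U ≤ ((h⁻¹ • S : Sylow 2 G) : Subgroup G) ⊓ (T : Subgroup G) := by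
    intro u hu
    rw [Subgroup.mem_inf]
    refine ⟨?_, hu.1⟩
    rw [Sylow.coe_subgroup_smul, Subgroup.mem_pointwise_smul_iff_inv_smul_mem]
    have : (MulAut.conj h⁻¹)⁻¹ • u = h * u * h⁻¹ := by
      simp [MulAut.smul_def]
    rw [this]
    exact hconj u hu
  have hUrank : Cfsg.PRankLE 2 1 ↥U :=
    Cfsg.Agent.Lib.Helper21.PRankLE.mono_subgroup hUle (hI (h⁻¹ • S) T hne')
  have hmap : (S : Subgroup G).map (QuotientGroup.mk' H) ⊓ (T : Subgroup G).map (QuotientGroup.mk' H)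
      = U.map (QuotientGroup.mk' H) := by
    ext y
    simp only [Subgroup.mem_inf, Subgroup.mem_map]
    constructor
    · rintro ⟨⟨s, hs, rfl⟩, ⟨t, ht, hts⟩⟩
      refine ⟨t, ⟨ht, ?_⟩, hts⟩
      have h1 : s⁻¹ * t ∈ H := by
        rw [← QuotientGroup.eq_one_iff]
        have : ((s⁻¹ * t : G) : G ⧸ H) = ((QuotientGroup.mk' H) s)⁻¹ * (QuotientGroup.mk' H) t := rfl
        rw [this, hts]; simp
      have h2 : t = s * (s⁻¹ * t) := by group
      rw [h2]
      exact Subgroup.mul_mem_sup hs h1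
    · rintro ⟨u, hu, rfl⟩
      refine ⟨?_, ⟨u, hu.1, rfl⟩⟩
      obtain ⟨s, hs, k, hk, hsk⟩ := Subgroup.mem_sup_of_normal_right.1 hu.2
      refine ⟨s, hs, ?_⟩
      rw [← hsk, map_mul]
      have hk1 : (QuotientGroup.mk' H) k = 1 := (QuotientGroup.eq_one_iff k).2 hk
      rw [hk1, mul_one]
  rw [hmap]
  have hinj : Function.Injective ((QuotientGroup.mk' H).subgroupMap U) := by
    rw [injective_iff_map_eq_one]
    intro u hu1
    have h1 : (u : G) ∈ H := by
      rw [← QuotientGroup.eq_one_iff]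
      exact congrArg Subtype.val hu1
    obtain ⟨k, hk⟩ := hUp u
    have hk' : (u : G) ^ (2 ^ k) = 1 := by
      have := congrArg Subtype.val hk
      simpa using this
    have h2 : orderOf (u : G) ∣ 2 ^ k := orderOf_dvd_of_pow_eq_one hk'
    have h3 : orderOf (u : G) ∣ Nat.card H := Subgroup.orderOf_dvd_natCard H h1
    have h4 : orderOf (u : G) = 1 :=
      Nat.eq_one_of_dvd_coprimes (Nat.Coprime.pow_right k hH) h3 h2
    exact Subtype.ext (orderOf_eq_one_iff.1 h4)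
  exact Cfsg.Agent.Lib.Helper21.PRankLE.of_mulEquiv
    (MulEquiv.ofBijective ((QuotientGroup.mk' H).subgroupMap U)
      ⟨hinj, (QuotientGroup.mk' H).subgroupMap_surjective U⟩) hUrank

theorem prank_quot {G : Type*} [Group G] [Finite G]
    (hI : ∀ S T : Sylow 2 G, S ≠ T → Cfsg.PRankLE 2 1 ↥((S : Subgroup G) ⊓ (T : Subgroup G))) :
    ∀ S T : Sylow 2 (G ⧸ Cfsg.oddCore G), S ≠ T →
      Cfsg.PRankLE 2 1 ↥((S : Subgroup (G ⧸ Cfsg.oddCore G)) ⊓ (T : Subgroup (G ⧸ Cfsg.oddCore G))) :=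
  A_gen hI (Cfsg.oddCore G) (card_pPrimeCore_coprime 2)

end Cfsg.Agent.Lib.Helper49.G23
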