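import Mathlib
import Cfsg.Statements.S3304
import Cfsg.Agent.Lib.Helper32.FCSol3

set_option autoImplicit false

namespace Cfsg.Agent.Lib.Helper49.G23

open Cfsg Cfsg.Agent.Lib.Helper32.FCSol

theorem B1_eq_of_comm {R : Type*} [Group R] [Finite R] (h : Cfsg.PRankLE 2 1 R) {x z : R}
    (hx : orderOf x = 2) (hz : orderOf z = 2) (hxz : x * z = z * x) : x = z := by
  by_contra hne
  have hx2 : x ^ 2 = 1 := by rw [← hx]; exact pow_orderOf_eq_one x
  have hz2 : z ^ 2 = 1 := by rw [← hz]; exact pow_orderOf_eq_one z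
  have hx1 : x ≠ 1 := by
    rintro rfl
    simp at hx
  have hz1 : z ≠ 1 := by
    rintro rfl
    simp at hz
  have hk : ∀ a ∈ ({x, z} : Set R), ∀ b ∈ ({x, z} : Set R), a * b = b * a := by
    rintro a (rfl | rfl) b (rfl | rfl)
    · rfl
    · exact hxz
    · exact hxz.symm
    · rfl
  have hcomm : ∀ a ∈ Subgroup.closure ({x, z} : Set R), ∀ b ∈ Subgroup.closure ({x, z} : Set R),
      a * b = b * a := by
    intro a ha b hb
    have hI := Subgroup.isMulCommutative_closure hk
    have := hI.is_comm.comm (⟨a, ha⟩ : Subgroup.closure ({x, z} : Set R)) ⟨b, hb⟩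
    exact congrArg Subtype.val this
  have hexp : ∀ a ∈ Subgroup.closure ({x, z} : Set R), a ^ 2 = 1 := by
    intro a ha
    induction ha using Subgroup.closure_induction with
    | mem a ha =>
      rcases ha with rfl | rfl
      · exact hx2
      · exact hz2
    | one => simp
    | mul a b ha hb iha ihb =>
      rw [sq] at iha ihb ⊢
      calc a * b * (a * b) = a * (b * a) * b := by group
        _ = a * (a * b) * b := by rw [hcomm b hb a ha]
        _ = (a * a) * (b * b) := by group
        _ = 1 := by rw [iha, ihb, one_mul]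
    | inv a ha iha => rw [inv_pow, iha, inv_one]
  have hcard := h (Subgroup.closure ({x, z} : Set R))
    ⟨⟨fun a b => Subtype.ext (hcomm a a.2 b b.2)⟩⟩ hexp
  have hxA : x ∈ Subgroup.closure ({x, z} : Set R) := Subgroup.subset_closure (by simp)
  have hzA : z ∈ Subgroup.closure ({x, z} : Set R) := Subgroup.subset_closure (by simp)
  have h3 : 3 ≤ Nat.card (Subgroup.closure ({x, z} : Set R)) := by
    classical
    have := Fintype.ofFinite (Subgroup.closure ({x, z} : Set R))
    rw [Nat.card_eq_fintype_card]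
    have hc : ({1, ⟨x, hxA⟩, ⟨z, hzA⟩} : Finset (Subgroup.closure ({x, z} : Set R))).card = 3 := by
      rw [Finset.card_insert_of_notMem, Finset.card_insert_of_notMem, Finset.card_singleton]
      · simp only [Finset.mem_singleton, Subtype.mk.injEq]
        exact hne
      · simp only [Finset.mem_insert, Finset.mem_singleton]
        rintro (h1 | h1)
        · exact hx1 (congrArg Subtype.val h1).symm
        · exact hz1 (congrArg Subtype.val h1).symm
    rw [← hc]
    exact Finset.card_le_univ _
  omega

theorem ui_of_prank {R : Type*} [Group R] [Finite R] (hR : IsPGroup 2 R) (h : Cfsg.PRankLE 2 1 R) :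
    UI R := by
  haveI : Fact (Nat.Prime 2) := ⟨Nat.prime_two⟩
  intro x y hx hy
  haveI : Nontrivial R := by
    refine ⟨⟨x, 1, ?_⟩⟩
    rintro rfl
    simp at hx
  haveI := hR.center_nontrivial
  obtain ⟨n, hn⟩ := IsPGroup.iff_card.1 (hR.to_subgroup (Subgroup.center R))
  have hn0 : n ≠ 0 := by
    rintro rfl
    have := Finite.one_lt_card (α := Subgroup.center R)
    omega
  have hdvd : 2 ∣ Nat.card (Subgroup.center R) := by
    rw [hn]
    exact dvd_pow_self 2 hn0
  obtain ⟨z, hz⟩ := exists_prime_orderOf_dvd_card' 2 hdvd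
  have hz' : orderOf (z : R) = 2 := by rw [Subgroup.orderOf_coe, hz]
  have hzc : ∀ g : R, g * z = z * g := Subgroup.mem_center_iff.1 z.2
  rw [B1_eq_of_comm h hx hz' (hzc x), B1_eq_of_comm h hy hz' (hzc y)]

end Cfsg.Agent.Lib.Helper49.G23
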