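import Mathlib
import Cfsg.Agent.Lib.Lead.Cores
import Cfsg.Agent.Lib.Helper32.FCSol3

set_option autoImplicit false

namespace Cfsg.Agent.Lib.Helper49.G23

open Cfsg Cfsg.Agent.Lib.Lead Cfsg.Agent.Lib.Helper32.FCSol

theorem q8_of_not_closed {X : Type*} [Group X] [Finite X]
    (hcent : Subgroup.centralizer (Cfsg.pCore 2 X : Set X) ≤ Cfsg.pCore 2 X)
    (hU : UI ↥(Cfsg.pCore 2 X))
    (hn : ¬ ∃ P : Sylow 2 X, (P : Subgroup X).Normal) :
    Nonempty (↥(Cfsg.pCore 2 X) ≃* QuaternionGroup 2) ∧ Nat.card X = 48 := by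
  have : Fact (Nat.Prime 2) := ⟨Nat.prime_two⟩
  have hR2 : IsPGroup 2 (Cfsg.pCore 2 X) := pCore_isPGroup 2 X
  have hnp : ¬ IsPGroup 2 X := by
    intro hX
    obtain ⟨P⟩ : Nonempty (Sylow 2 X) := inferInstance
    apply hn
    refine ⟨P, ?_⟩
    have : (P : Subgroup X) = ⊤ := (P.3 (hX.to_subgroup _) le_top).symm
    rw [this]; infer_instance
  have he : Nonempty (↥(Cfsg.pCore 2 X) ≃* QuaternionGroup 2) := by
    rcases UI.group_cyclic_or_quaternion hU hR2 with hc | ⟨n, ⟨e⟩⟩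
    · exact absurd (isPGroup_of_cyclic _ hR2 hcent hc) hnp
    · cases n with
      | zero => exact ⟨e⟩
      | succ m => exact absurd (isPGroup_of_quaternion _ hR2 hcent m e) hnp
  refine ⟨he, ?_⟩
  obtain ⟨e⟩ := he
  have h6 : (Cfsg.pCore 2 X).index ∣ 6 := index_dvd_six _ e hcent
  have h8 : Nat.card (Cfsg.pCore 2 X) = 8 := card_q8 e
  have hmul := (Cfsg.pCore 2 X).card_mul_index
  rw [h8] at hmul
  have hle : (Cfsg.pCore 2 X).index ≤ 6 := Nat.le_of_dvd (by norm_num) h6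
  obtain ⟨k, hk⟩ : ∃ k, k = (Cfsg.pCore 2 X).index := ⟨_, rfl⟩
  rw [← hk] at h6 hmul hle
  interval_cases k
  · omega
  · exact absurd (IsPGroup.of_card (n := 3) (by rw [← hmul]; norm_num)) hnp
  · exact absurd (IsPGroup.of_card (n := 4) (by rw [← hmul]; norm_num)) hnp
  · exfalso
    obtain ⟨P⟩ : Nonempty (Sylow 2 X) := inferInstance
    apply hn
    refine ⟨P, ?_⟩
    have hP : Nat.card P = 8 := by
      obtain ⟨j, hj⟩ := (IsPGroup.iff_card).1 P.2
      have hd : Nat.card P ∣ Nat.card X := Subgroup.card_subgroup_dvd_card _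
      have hd8 : Nat.card (Cfsg.pCore 2 X) ∣ Nat.card P := Subgroup.card_dvd_of_le (pCore_le_sylow P)
      rw [h8] at hd8
      rw [← hmul] at hd
      obtain ⟨a, ha⟩ := hd8
      rw [ha] at hd hj ⊢
      have ha3 : a ∣ 3 := Nat.dvd_of_mul_dvd_mul_left (by norm_num : 0 < 8) hd
      rcases (Nat.dvd_prime Nat.prime_three).1 ha3 with rfl | rfl
      · rfl
      · exfalso
        have h3 : 3 ∣ 2 ^ j := ⟨8, by rw [← hj]⟩
        have := Nat.Prime.dvd_of_dvd_pow Nat.prime_three h3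
        omega
    have : Cfsg.pCore 2 X = (P : Subgroup X) :=
      Subgroup.eq_of_le_of_card_ge (pCore_le_sylow P) (by rw [h8]; exact hP.le)
    rw [← this]; infer_instance
  · omega
  · omega
  · omega

end Cfsg.Agent.Lib.Helper49.G23
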