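import Mathlib
import Cfsg.Statements.S3304
import Cfsg.Agent.Lib.Lead.Cores
import Cfsg.Agent.Lib.Helper32.FCSol3
import Cfsg.Agent.Lib.Helper62.SylTwoType

set_option autoImplicit false

namespace Cfsg.Agent.Lib.Helper49.G23

open Cfsg Cfsg.Agent.Lib.Lead Cfsg.Agent.Lib.Helper32.FCSol Cfsg.Agent.Lib.Helper62

theorem ui_case {X : Type*} [Group X] [Finite X] (T : Subgroup X) [T.Normal]
    (e : T ≃* QuaternionGroup 2) (hC : Subgroup.centralizer (T : Set X) ≤ T)
    (h48 : Nat.card X = 48) (hu : UI X) :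
    Nat.card ↥(Subgroup.center X) = 2 ∧
      Nonempty (X ⧸ Subgroup.center X ≃* Equiv.Perm (Fin 4)) ∧
      ∀ P : Sylow 2 X, Nonempty (↥(P : Subgroup X) ≃* QuaternionGroup 4) := by
  haveI : Fact (Nat.Prime 2) := ⟨Nat.prime_two⟩
  have hZ : Subgroup.center X = Subgroup.centralizer (T : Set X) := by
    apply le_antisymm (Subgroup.center_le_centralizer _)
    intro c hc
    rw [Subgroup.mem_center_iff]
    intro y
    exact (central_of_mem hu T e hC hc y).eq.symm
  have hcZ : Nat.card (Subgroup.centralizer (T : Set X)) = 2 := card_centralizer_q8 T e hC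
  refine ⟨by rw [hZ]; exact hcZ, ?_, ?_⟩
  · have hq : Nat.card (X ⧸ Subgroup.centralizer (T : Set X)) = 24 := by
      have := Subgroup.card_eq_card_quotient_mul_card_subgroup (Subgroup.centralizer (T : Set X))
      rw [h48, hcZ] at this
      omega
    rcases quot_cases hu T e hC with h1 | ⟨⟨f⟩⟩ | ⟨⟨f⟩⟩
    · exfalso
      obtain ⟨k, hk⟩ := IsPGroup.iff_card.1 h1
      rw [h48] at hk
      have h3 : 3 ∣ 2 ^ k := by
        rw [← hk]
        norm_num
      have := (Nat.Prime.dvd_of_dvd_pow Nat.prime_three h3)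
      omega
    · exfalso
      have h2 := Nat.card_congr f.toEquiv
      rw [hq, Nat.card_eq_fintype_card] at h2
      have h3 : Fintype.card (alternatingGroup (Fin 4)) = 12 := by decide
      omega
    · exact ⟨(QuotientGroup.quotientMulEquivOfEq hZ).trans f⟩
  · intro P
    have hP : Nat.card P = 2 ^ 4 := card_sylow_two_of_card (k := 4) (r := 3) (by rw [h48]; norm_num) (by decide) P
    have hT2 : IsPGroup 2 T := IsPGroup.of_card (n := 3) (by rw [card_q8 e]; norm_num)
    have hTP : T ≤ P := (le_pCore inferInstance hT2).trans (pCore_le_sylow P)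
    rcases UI.cyclic_or_quaternion hu P P.2 with hc | ⟨n, ⟨f⟩⟩
    · exfalso
      obtain ⟨g, hg⟩ := hc
      have hcomm : ∀ a b : T, a * b = b * a := by
        intro a b
        obtain ⟨i, hi⟩ := Subgroup.mem_zpowers_iff.1 (hg ⟨a, hTP a.2⟩)
        obtain ⟨j, hj⟩ := Subgroup.mem_zpowers_iff.1 (hg ⟨b, hTP b.2⟩)
        have h1 : (⟨a, hTP a.2⟩ : (P : Subgroup X)) * ⟨b, hTP b.2⟩ = ⟨b, hTP b.2⟩ * ⟨a, hTP a.2⟩ := by
          rw [← hi, ← hj, ← zpow_add, ← zpow_add, add_comm]
        have h2 : ((a : X) * (b : X)) = (b : X) * (a : X) := congrArg Subtype.val h1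
        exact Subtype.ext h2
      apply q8_not_comm
      have := hcomm (e.symm (QuaternionGroup.a 1)) (e.symm (QuaternionGroup.xa 0))
      rw [← map_mul, ← map_mul] at this
      exact e.symm.injective this
    · have h1 := Nat.card_congr f.toEquiv
      haveI : NeZero (2 ^ (n + 1)) := ⟨by positivity⟩
      rw [hP, Nat.card_eq_fintype_card, QuaternionGroup.card] at h1
      have hn : 2 ^ (n + 1) = 4 := by omega
      rw [hn] at f
      exact ⟨f⟩

end Cfsg.Agent.Lib.Helper49.G23
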