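import Mathlib
import Cfsg.Statements.S3304
import Cfsg.Agent.Lib.Helper32.FCSol3

set_option autoImplicit false

namespace Cfsg.Agent.Lib.Helper49.G23

open Cfsg Cfsg.Agent.Lib.Helper32.FCSol

theorem Da_q8 : ∀ w : QuaternionGroup 2, w * w = 1 → w ≠ 1 → w = QuaternionGroup.a 2 := by decide

theorem Da_s3 : ∀ τ δ : Equiv.Perm (Fin 3), τ ≠ 1 → τ * τ = 1 → δ ≠ 1 → δ * δ * δ = 1 →
    τ * (δ * τ * δ⁻¹) = δ := by decide

theorem exists_tg {X : Type*} [Group X] [Finite X] (T : Subgroup X) [T.Normal]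
    (e : T ≃* QuaternionGroup 2) (hC : Subgroup.centralizer (T : Set X) ≤ T)
    (h48 : Nat.card X = 48) (hu : ¬ UI X) :
    ∃ t g : X, t * t = 1 ∧ t ∉ T ∧ g ^ 3 = 1 ∧ g ∉ T ∧ t * g * t⁻¹ = g⁻¹ := by
  haveI : Fact (Nat.Prime 3) := ⟨Nat.prime_three⟩
  have hker : (piY T e).ker = T := by rw [ker_piY, sup_eq_left.mpr hC]
  have hmem : ∀ x : X, x ∈ T ↔ piY T e x = 1 := by
    intro x
    rw [← MonoidHom.mem_ker, hker]
  -- an involution outside T
  have hinv : ∀ x : X, orderOf x = 2 → ∀ hx : x ∈ T, e ⟨x, hx⟩ = QuaternionGroup.a 2 := by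
    intro x hx hxT
    apply Da_q8
    · rw [← map_mul]
      have : (⟨x, hxT⟩ : T) * ⟨x, hxT⟩ = 1 := by
        ext
        have := pow_orderOf_eq_one x
        rw [hx, sq] at this
        exact this
      rw [this, map_one]
    · intro h1
      have h2 : (⟨x, hxT⟩ : T) = 1 := e.injective (by rw [h1, map_one])
      have h3 : x = 1 := congrArg Subtype.val h2
      rw [h3] at hx
      simp at hx
  obtain ⟨t, ht2, htT⟩ : ∃ t : X, orderOf t = 2 ∧ t ∉ T := by
    unfold UI at hu
    push Not at hu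
    obtain ⟨x, y, hx, hy, hxy⟩ := hu
    by_cases hxT : x ∈ T
    · by_cases hyT : y ∈ T
      · exfalso
        apply hxy
        have := e.injective ((hinv x hx hxT).trans (hinv y hy hyT).symm)
        exact congrArg Subtype.val this
      · exact ⟨y, hy, hyT⟩
    · exact ⟨x, hx, hxT⟩
  have htt : t * t = 1 := by
    have := pow_orderOf_eq_one t
    rwa [ht2, sq] at this
  have htinv : t⁻¹ = t := inv_eq_of_mul_eq_one_left htt
  obtain ⟨d, hd⟩ := exists_prime_orderOf_dvd_card' (G := X) 3 (by rw [h48]; norm_num)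
  have hdT : d ∉ T := by
    intro hdT
    have h1 : orderOf d ∣ Nat.card T := Subgroup.orderOf_dvd_natCard T hdT
    rw [hd, card_q8 e] at h1
    omega
  have hd3 : d ^ 3 = 1 := by rw [← hd]; exact pow_orderOf_eq_one d
  have πt1 : piY T e t ≠ 1 := fun h => htT ((hmem t).2 h)
  have πtt : piY T e t * piY T e t = 1 := by rw [← map_mul, htt, map_one]
  have πd1 : piY T e d ≠ 1 := fun h => hdT ((hmem d).2 h)
  have πd3 : piY T e d * piY T e d * piY T e d = 1 := by
    rw [← map_mul, ← map_mul, ← pow_three', hd3, map_one]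
  have πu : piY T e (t * (d * t * d⁻¹)) = piY T e d := by
    rw [map_mul, map_mul, map_mul, map_inv]
    exact Da_s3 _ _ πt1 πtt πd1 πd3
  refine ⟨t, (t * (d * t * d⁻¹)) ^ 16, htt, htT, ?_, ?_, ?_⟩
  · rw [← pow_mul]
    have := pow_card_eq_one' (G := X) (x := t * (d * t * d⁻¹))
    rwa [h48] at this
  · rw [hmem, map_pow, πu]
    have h1 : piY T e d ^ 3 = 1 := by rw [← map_pow, hd3, map_one]
    have h2 : piY T e d ^ 16 = piY T e d := by
      calc piY T e d ^ 16 = (piY T e d ^ 3) ^ 5 * piY T e d := by rw [← pow_mul, ← pow_succ]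
        _ = piY T e d := by rw [h1, one_pow, one_mul]
    rw [h2]
    exact πd1
  · rw [← conj_pow, ← inv_pow]
    congr 1
    rw [mul_inv_rev, mul_inv_rev, mul_inv_rev, inv_inv, htinv]
    calc t * (t * (d * t * d⁻¹)) * t = (t * t) * (d * t * d⁻¹) * t := by group
      _ = d * (t * d⁻¹) * t := by rw [htt]; group

end Cfsg.Agent.Lib.Helper49.G23
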