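import Mathlib
import Cfsg.Statements.S3304
import Cfsg.Agent.Lib.Helper32.FCSol3

set_option autoImplicit false

namespace Cfsg.Agent.Lib.Helper49.G23

open Cfsg Cfsg.Agent.Lib.Helper32.FCSol Cfsg.Agent.Lib.Helper20.Fus

theorem Db_q8 : ∀ u v : QuaternionGroup 2, u * u ≠ 1 → v * v ≠ 1 → cls v ≠ cls u →
    (u * v) * (u * v) ≠ 1 ∧ v * u = (u * v)⁻¹ := by decide

theorem exists_i {X : Type*} [Group X] (T : Subgroup X) [T.Normal]
    (e : T ≃* QuaternionGroup 2) (hC : Subgroup.centralizer (T : Set X) ≤ T)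
    {t : X} (ht : t * t = 1) (htT : t ∉ T) :
    ∃ i ∈ T, i * i ≠ 1 ∧ t * i * t⁻¹ = i⁻¹ := by
  have hker : (piY T e).ker = T := by rw [ker_piY, sup_eq_left.mpr hC]
  have πt1 : piY T e t ≠ 1 := by
    intro h
    apply htT
    rw [← hker]
    exact h
  obtain ⟨a, ha⟩ : ∃ a : Fin 3, piY T e t a ≠ a := by
    by_contra hcon
    push Not at hcon
    exact πt1 (Equiv.ext hcon)
  have h1 : piY T e t = piHom (MulAut.congr e (MulAut.conjNormal t : MulAut T)) := rfl
  have h2 : ∀ v : T, (MulAut.congr e (MulAut.conjNormal t : MulAut T)) (e v)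
      = e (MulAut.conjNormal t v) := by
    intro v
    simp [MulAut.congr]
  obtain ⟨r, hr⟩ : ∃ r : T, e r = rep a := ⟨e.symm (rep a), by simp⟩
  rw [h1, piHom_apply, ← hr, h2] at ha
  have hrr : e r * e r ≠ 1 := by
    rw [hr]
    exact rep_sq a
  have hr'r' : e (MulAut.conjNormal t r) * e (MulAut.conjNormal t r) ≠ 1 := by
    rw [← map_mul, ← map_mul]
    intro h3
    apply hrr
    rw [← map_mul]
    have h4 : MulAut.conjNormal t (r * r) = 1 := e.injective (by rw [h3, map_one])
    have h5 : r * r = 1 := (MulAut.conjNormal t : MulAut T).injective (by rw [h4, map_one])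
    rw [h5, map_one]
  have hcls : cls (e (MulAut.conjNormal t r)) ≠ cls (e r) := by
    rw [hr, cls_rep]
    exact ha
  obtain ⟨f1, f2⟩ := Db_q8 _ _ hrr hr'r' hcls
  refine ⟨((r * MulAut.conjNormal t r : T) : X), (r * MulAut.conjNormal t r : T).2, ?_, ?_⟩
  · intro h3
    apply f1
    rw [← map_mul, ← map_mul]
    have h4 : (r * MulAut.conjNormal t r) * (r * MulAut.conjNormal t r) = 1 := Subtype.ext h3
    rw [h4, map_one]
  · have h3 : MulAut.conjNormal t r * r = (r * MulAut.conjNormal t r)⁻¹ := by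
      apply e.injective
      rw [map_mul, map_inv, map_mul]
      exact f2
    have h4 := congrArg Subtype.val h3
    rw [Subgroup.coe_inv] at h4
    rw [← h4]
    simp only [Subgroup.coe_mul, MulAut.conjNormal_apply]
    have htinv : t⁻¹ = t := inv_eq_of_mul_eq_one_left ht
    rw [htinv]
    calc t * (↑r * (t * ↑r * t)) * t = t * ↑r * t * ↑r * (t * t) := by group
      _ = t * ↑r * t * ↑r := by rw [ht, mul_one]

end Cfsg.Agent.Lib.Helper49.G23
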