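import Mathlib
import Cfsg.Agent.Lib.Helper62.SL23b

set_option autoImplicit false

namespace Cfsg.Agent.Lib.Helper49.G23

open Cfsg.Agent.Lib.Helper62

theorem Dc_nmem {X : Type*} [Group X] (T : Subgroup X) [T.Normal]
    {t g i : X} (ht : t * t = 1) (htT : t ∉ T) (hg : g ^ 3 = 1) (hi : i ∈ T) :
    t ∉ Subgroup.closure {i, g} := by
  intro hmem
  have hle : Subgroup.closure {i, g} ≤
      (Subgroup.zpowers (QuotientGroup.mk' T g)).comap (QuotientGroup.mk' T) := by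
    rw [Subgroup.closure_le]
    rintro y (rfl | rfl)
    · rw [SetLike.mem_coe, Subgroup.mem_comap]
      have : QuotientGroup.mk' T y = 1 := (QuotientGroup.eq_one_iff y).2 hi
      rw [this]; exact Subgroup.one_mem _
    · rw [SetLike.mem_coe, Subgroup.mem_comap]
      exact Subgroup.mem_zpowers _
  obtain ⟨k, hk⟩ := hle hmem
  have hk' : (QuotientGroup.mk' T g) ^ k = QuotientGroup.mk' T t := hk
  have h3 : (QuotientGroup.mk' T t) ^ 3 = 1 := by
    rw [← hk', ← zpow_natCast, ← zpow_mul, mul_comm, zpow_mul, zpow_natCast, ← map_pow, hg, map_one,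
      one_zpow]
  have h2 : (QuotientGroup.mk' T t) ^ 2 = 1 := by
    rw [← map_pow, pow_two, ht, map_one]
  have h1 : QuotientGroup.mk' T t = 1 := by
    calc QuotientGroup.mk' T t = (QuotientGroup.mk' T t) ^ 3 * ((QuotientGroup.mk' T t) ^ 2)⁻¹ := by
          group
      _ = 1 := by rw [h3, h2]; simp
  exact htT ((QuotientGroup.eq_one_iff t).1 h1)

theorem data_of_tgi {X : Type*} [Group X] (T : Subgroup X) [T.Normal]
    (e : T ≃* QuaternionGroup 2) (hC : Subgroup.centralizer (T : Set X) ≤ T)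
    {t g i : X} (ht : t * t = 1) (htT : t ∉ T) (hg : g ^ 3 = 1) (hgT : g ∉ T)
    (htg : t * g * t⁻¹ = g⁻¹) (hi : i ∈ T) (hi1 : i * i ≠ 1) (hti : t * i * t⁻¹ = i⁻¹) :
    ∃ i' : X, SL23Data i' g ∧ t ∉ Subgroup.closure {i', g} ∧ t * i' * t⁻¹ = i'⁻¹ := by
  have hgN : g ∈ Subgroup.normalizer (T : Set X) := by
    rw [Subgroup.normalizer_eq_top]; exact Subgroup.mem_top g
  have hgC : g ∉ Subgroup.centralizer (T : Set X) := fun h => hgT (hC h)
  rcases Helper20.Fus.q8_three_cycle e hgN hgC (m := 3) (by decide) hg hi hi1 with h | h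
  · exact ⟨i, ((sl23Data_of_q8_aux e hgN hgC hg hi hi1).1 h.symm).1, Dc_nmem T ht htT hg hi, hti⟩
  · have hi1' : i⁻¹ * i⁻¹ ≠ 1 := by
      intro h'
      apply hi1
      have : (i * i)⁻¹ = 1 := by rw [mul_inv_rev]; exact h'
      rwa [inv_eq_one] at this
    refine ⟨i⁻¹, ((sl23Data_of_q8_aux e hgN hgC hg (T.inv_mem hi) hi1').1 ?_).1,
      Dc_nmem T ht htT hg (T.inv_mem hi), ?_⟩
    · have h4 := (sl23Data_of_q8_aux e hgN hgC hg hi hi1).2
      have e1 : g * i⁻¹ * g⁻¹ = (g * i * g⁻¹)⁻¹ := by group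
      have e2 : g * (g * i * g⁻¹)⁻¹ * g⁻¹ = (g * (g * i * g⁻¹) * g⁻¹)⁻¹ := by
        simp only [mul_inv_rev, inv_inv, mul_assoc]
      rw [e1, e2, h4, h]
    · have : t * i⁻¹ * t⁻¹ = (t * i * t⁻¹)⁻¹ := by group
      rw [this, hti]

end Cfsg.Agent.Lib.Helper49.G23
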