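import Mathlib
import Cfsg.Agent.Lib.Helper62.SL23

set_option autoImplicit false

namespace Cfsg.Agent.Lib.Helper49.G23

open Cfsg.Agent.Lib.Helper62

theorem card_closure {X : Type*} [Group X] {i g : X} (h : SL23Data i g) :
    Nat.card ↥(Subgroup.closure ({i, g} : Set X)) = 24 := by
  have hi : i ∈ Subgroup.closure ({i, g} : Set X) := Subgroup.subset_closure (by simp)
  have hg : g ∈ Subgroup.closure ({i, g} : Set X) := Subgroup.subset_closure (by simp)
  have hd : SL23Data (⟨i, hi⟩ : ↥(Subgroup.closure ({i, g} : Set X))) ⟨g, hg⟩ := by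
    apply SL23Data.of_rel
    · rw [← h.order]
      exact (Subgroup.orderOf_mk i hi)
    · exact Subtype.ext h.cube
    · exact Subtype.ext h.sq
    · exact Subtype.ext h.inv
    · exact Subtype.ext h.conj
  have hc : Subgroup.closure ({⟨i, hi⟩, ⟨g, hg⟩} : Set ↥(Subgroup.closure ({i, g} : Set X))) = ⊤ := by
    have := Subgroup.closure_closure_coe_preimage (k := ({i, g} : Set X))
    rw [← this]
    congr 1
    ext ⟨y, hy⟩
    simp [Subtype.ext_iff]
  obtain ⟨e⟩ := hd.nonempty_equiv_of_closure hc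
  rw [← Nat.card_congr e.toEquiv, card_Q8C3]

theorem data_prod {X₁ X₂ : Type*} [Group X₁] [Group X₂] {i₁ g₁ : X₁} {i₂ g₂ : X₂}
    (h₁ : SL23Data i₁ g₁) (h₂ : SL23Data i₂ g₂) :
    SL23Data ((i₁, i₂) : X₁ × X₂) (g₁, g₂) := by
  apply SL23Data.of_rel
  · rw [Prod.orderOf_mk, h₁.order, h₂.order]; rfl
  · exact Prod.ext h₁.cube h₂.cube
  · exact Prod.ext h₁.sq h₂.sq
  · exact Prod.ext h₁.inv h₂.inv
  · exact Prod.ext h₁.conj h₂.conj

end Cfsg.Agent.Lib.Helper49.G23
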