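import Mathlib

set_option autoImplicit false

namespace Cfsg.Agent.Lib.Helper49.G23

/-- auxiliary: a homomorphism from a group of order at most 48 to a group of order 48 whose range
contains a subgroup of order 24 and an element outside it is bijective. -/
theorem E1_bij {Γ X : Type*} [Group Γ] [Group X] [Finite Γ] (c : Nat.card X = 48)
    (hΓ : Nat.card Γ ≤ 48) (π : Γ →* X) (K : Subgroup X) (k : Nat.card K = 24)
    (hK : K ≤ π.range) {t : X} (ht : t ∈ π.range) (hn : t ∉ K) :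
    Function.Bijective π := by
  haveI : Finite X := Nat.finite_of_card_ne_zero (by rw [c]; norm_num)
  have h1 : Nat.card K ∣ Nat.card π.range := Subgroup.card_dvd_of_le hK
  have h2 : Nat.card π.range ∣ Nat.card X := Subgroup.card_subgroup_dvd_card _
  rw [k] at h1
  rw [c] at h2
  have h3 : Nat.card π.range ≠ 24 := by
    intro h
    have : K = π.range := Subgroup.eq_of_le_of_card_ge hK (by rw [h, k])
    exact hn (this ▸ ht)
  have h4 : Nat.card π.range = 48 := by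
    obtain ⟨a, ha⟩ := h1
    obtain ⟨b, hb⟩ := h2
    rw [ha] at hb h3 ⊢
    have : a * b = 2 := by nlinarith
    have ha2 : a ∣ 2 := ⟨b, this.symm⟩
    have := (Nat.dvd_prime Nat.prime_two).1 ha2
    rcases this with rfl | rfl
    · omega
    · rfl
  have h5 : π.range = ⊤ := Subgroup.eq_top_of_card_eq _ (by rw [h4, c])
  have hs : Function.Surjective π := MonoidHom.range_eq_top.1 h5
  have h6 : Nat.card X ≤ Nat.card Γ := Nat.card_le_card_of_surjective π hs
  rw [Nat.bijective_iff_surjective_and_card]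
  exact ⟨hs, by omega⟩

theorem iso_of_data {X₁ X₂ : Type*} [Group X₁] [Group X₂]
    (c₁ : Nat.card X₁ = 48) (c₂ : Nat.card X₂ = 48)
    {i₁ g₁ t₁ : X₁} {i₂ g₂ t₂ : X₂}
    (k₁ : Nat.card ↥(Subgroup.closure ({i₁, g₁} : Set X₁)) = 24)
    (k₂ : Nat.card ↥(Subgroup.closure ({i₂, g₂} : Set X₂)) = 24)
    (k : Nat.card ↥(Subgroup.closure ({(i₁, i₂), (g₁, g₂)} : Set (X₁ × X₂))) = 24)
    (ht₁ : t₁ * t₁ = 1) (ht₂ : t₂ * t₂ = 1)
    (hn₁ : t₁ ∉ Subgroup.closure {i₁, g₁}) (hn₂ : t₂ ∉ Subgroup.closure {i₂, g₂})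
    (hg₁ : t₁ * g₁ * t₁⁻¹ = g₁⁻¹) (hg₂ : t₂ * g₂ * t₂⁻¹ = g₂⁻¹)
    (hi₁ : t₁ * i₁ * t₁⁻¹ = i₁⁻¹) (hi₂ : t₂ * i₂ * t₂⁻¹ = i₂⁻¹) :
    Nonempty (X₁ ≃* X₂) := by
  haveI : Finite X₁ := Nat.finite_of_card_ne_zero (by rw [c₁]; norm_num)
  haveI : Finite X₂ := Nat.finite_of_card_ne_zero (by rw [c₂]; norm_num)
  obtain ⟨I, hI⟩ : ∃ I : X₁ × X₂, I = (i₁, i₂) := ⟨_, rfl⟩
  obtain ⟨J, hJ⟩ : ∃ J : X₁ × X₂, J = (g₁, g₂) := ⟨_, rfl⟩
  obtain ⟨τ, hτ⟩ : ∃ τ : X₁ × X₂, τ = (t₁, t₂) := ⟨_, rfl⟩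
  rw [← hI, ← hJ] at k
  obtain ⟨C, hC⟩ : ∃ C : Subgroup (X₁ × X₂), C = Subgroup.closure {I, J} := ⟨_, rfl⟩
  rw [← hC] at k
  have hττ : τ * τ = 1 := by rw [hτ]; exact Prod.ext ht₁ ht₂
  have hτi : τ⁻¹ = τ := inv_eq_of_mul_eq_one_left hττ
  have hτI : τ * I * τ = I⁻¹ := by
    nth_rewrite 2 [← hτi]
    rw [hτ, hI]; exact Prod.ext hi₁ hi₂
  have hτJ : τ * J * τ = J⁻¹ := by
    nth_rewrite 2 [← hτi]
    rw [hτ, hJ]; exact Prod.ext hg₁ hg₂
  have hIC : I ∈ C := hC ▸ Subgroup.subset_closure (by simp)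
  have hJC : J ∈ C := hC ▸ Subgroup.subset_closure (by simp)
  have hN : ∀ c ∈ C, τ * c * τ ∈ C := by
    have : C ≤ C.comap (MulAut.conj τ).toMonoidHom := by
      rw [hC, Subgroup.closure_le, ← hC]
      rintro y (rfl | rfl)
      · change τ * y * τ⁻¹ ∈ C
        rw [hτi, hτI]; exact C.inv_mem hIC
      · change τ * y * τ⁻¹ ∈ C
        rw [hτi, hτJ]; exact C.inv_mem hJC
    intro c hc
    have := this hc
    change τ * c * τ⁻¹ ∈ C at this
    rwa [hτi] at this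
  let Γ : Subgroup (X₁ × X₂) :=
    { carrier := {y | y ∈ C ∨ y * τ ∈ C}
      one_mem' := Or.inl C.one_mem
      mul_mem' := by
        rintro a b (ha | ha) (hb | hb)
        · exact Or.inl (C.mul_mem ha hb)
        · refine Or.inr ?_
          rw [mul_assoc]; exact C.mul_mem ha hb
        · refine Or.inr ?_
          have : a * b * τ = (a * τ) * (τ * b * τ) := by
            calc a * b * τ = a * 1 * b * τ := by rw [mul_one]
              _ = a * (τ * τ) * b * τ := by rw [hττ]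
              _ = _ := by group
          rw [this]; exact C.mul_mem ha (hN _ hb)
        · refine Or.inl ?_
          have : a * b = (a * τ) * (τ * (b * τ) * τ) := by
            calc a * b = a * 1 * b * 1 := by rw [mul_one, mul_one]
              _ = a * (τ * τ) * b * (τ * τ) := by rw [hττ]
              _ = _ := by group
          rw [this]; exact C.mul_mem ha (hN _ hb)
      inv_mem' := by
        rintro a (ha | ha)
        · exact Or.inl (C.inv_mem ha)
        · refine Or.inr ?_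
          have : a⁻¹ * τ = τ * (a * τ)⁻¹ * τ := by
            rw [mul_inv_rev, hτi, ← mul_assoc, hττ, one_mul]
          rw [this]; exact hN _ (C.inv_mem ha) }
  have hmemΓ : ∀ y, y ∈ Γ ↔ y ∈ C ∨ y * τ ∈ C := fun y => Iff.rfl
  have hCΓ : C ≤ Γ := fun y hy => Or.inl hy
  have hτΓ : τ ∈ Γ := Or.inr (by rw [hττ]; exact C.one_mem)
  have hcardΓ : Nat.card Γ ≤ 48 := by
    have hset : (Γ : Set (X₁ × X₂)) = (C : Set (X₁ × X₂)) ∪ (fun y => y * τ) '' (C : Set (X₁ × X₂)) := by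
      ext y
      constructor
      · rintro (hy | hy)
        · exact Or.inl hy
        · refine Or.inr ⟨y * τ, hy, ?_⟩
          change y * τ * τ = y
          rw [mul_assoc, hττ, mul_one]
      · rintro (hy | ⟨z, hz, rfl⟩)
        · exact Or.inl hy
        · refine Or.inr ?_
          change z * τ * τ ∈ C
          rw [mul_assoc, hττ, mul_one]; exact hz
    have h1 : Nat.card Γ = (Γ : Set (X₁ × X₂)).ncard := (Nat.card_coe_set_eq _)
    have h2 : Nat.card C = (C : Set (X₁ × X₂)).ncard := (Nat.card_coe_set_eq _)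
    rw [h1, hset]
    calc _ ≤ (C : Set (X₁ × X₂)).ncard + ((fun y => y * τ) '' (C : Set (X₁ × X₂))).ncard :=
          Set.ncard_union_le _ _
      _ ≤ (C : Set (X₁ × X₂)).ncard + (C : Set (X₁ × X₂)).ncard :=
          Nat.add_le_add_left (Set.ncard_image_le (Set.toFinite _)) _
      _ = 48 := by rw [← h2, k]
  have b₁ : Function.Bijective ((MonoidHom.fst X₁ X₂).comp Γ.subtype) := by
    refine E1_bij c₁ hcardΓ _ _ k₁ ?_ (t := t₁) ?_ hn₁
    · rw [Subgroup.closure_le]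
      rintro y (rfl | rfl)
      · exact ⟨⟨I, hCΓ hIC⟩, by simp [hI]⟩
      · exact ⟨⟨J, hCΓ hJC⟩, by simp [hJ]⟩
    · exact ⟨⟨τ, hτΓ⟩, by simp [hτ]⟩
  have b₂ : Function.Bijective ((MonoidHom.snd X₁ X₂).comp Γ.subtype) := by
    refine E1_bij c₂ hcardΓ _ _ k₂ ?_ (t := t₂) ?_ hn₂
    · rw [Subgroup.closure_le]
      rintro y (rfl | rfl)
      · exact ⟨⟨I, hCΓ hIC⟩, by simp [hI]⟩
      · exact ⟨⟨J, hCΓ hJC⟩, by simp [hJ]⟩
    · exact ⟨⟨τ, hτΓ⟩, by simp [hτ]⟩
  exact ⟨(MulEquiv.ofBijective _ b₁).symm.trans (MulEquiv.ofBijective _ b₂)⟩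

end Cfsg.Agent.Lib.Helper49.G23
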