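import Mathlib
import Cfsg.Agent.Lib.Helper62.SL23

set_option autoImplicit false

namespace Cfsg.Agent.Lib.Helper49.G23

open Cfsg.Agent.Lib.Helper62

/-- an element of order four of `GL(2,3)` -/
def gl23i : GL (Fin 2) (ZMod 3) := ⟨!![0,1;-1,0], !![0,-1;1,0], by decide, by decide⟩
/-- an element of order three of `GL(2,3)` -/
def gl23g : GL (Fin 2) (ZMod 3) := ⟨!![0,1;-1,-1], !![-1,-1;1,0], by decide, by decide⟩
/-- an involution of `GL(2,3)` outside `SL(2,3)` -/
def gl23t : GL (Fin 2) (ZMod 3) := ⟨!![0,1;1,0], !![0,1;1,0], by decide, by decide⟩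

theorem gl23_data : ∃ i g t : GL (Fin 2) (ZMod 3), SL23Data i g ∧ t * t = 1 ∧
    t ∉ Subgroup.closure {i, g} ∧ t * g * t⁻¹ = g⁻¹ ∧ t * i * t⁻¹ = i⁻¹ := by
  refine ⟨gl23i, gl23g, gl23t, ?_, ?_, ?_, ?_, ?_⟩
  · apply SL23Data.of_rel
    · have : (4 : ℕ) = 2 ^ (1 + 1) := rfl
      rw [this]
      apply orderOf_eq_prime_pow
      · rw [Units.ext_iff]; decide
      · exact Units.ext (by decide)
    · exact Units.ext (by decide)
    · exact Units.ext (by decide)
    · exact Units.ext (by decide)
    · exact Units.ext (by decide)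
  · exact Units.ext (by decide)
  · intro ht
    have hle : Subgroup.closure {gl23i, gl23g} ≤
        (Matrix.GeneralLinearGroup.det (n := Fin 2) (R := ZMod 3)).ker := by
      rw [Subgroup.closure_le]
      rintro y (rfl | rfl)
      · rw [SetLike.mem_coe, MonoidHom.mem_ker, Units.ext_iff]
        change Matrix.det (!![0,1;-1,0] : Matrix (Fin 2) (Fin 2) (ZMod 3)) = 1
        decide
      · rw [SetLike.mem_coe, MonoidHom.mem_ker, Units.ext_iff]
        change Matrix.det (!![0,1;-1,-1] : Matrix (Fin 2) (Fin 2) (ZMod 3)) = 1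
        decide
    have := hle ht
    rw [MonoidHom.mem_ker, Units.ext_iff] at this
    change Matrix.det (!![0,1;1,0] : Matrix (Fin 2) (Fin 2) (ZMod 3)) = 1 at this
    revert this
    decide
  · exact Units.ext (by decide)
  · exact Units.ext (by decide)

end Cfsg.Agent.Lib.Helper49.G23
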